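import Cfsg.Agent.H6.ON.C1.D5

set_option autoImplicit false
set_option maxRecDepth 100000
set_option Elab.async false

namespace Cfsg.H6.ON.C1

theorem b15 : allR (blk get gs (gwB gwh 229) gd 27883091610518724965067285990866310486607288992000) 9599 648 = true := by decide +kernel

theorem b16 : allR (blk get gs (gwB gwh 229) gd 27883091610518724965067285990866310486607288992000) 10247 618 = true := by decide +kernel

theorem b17 : allR (blk get gs (gwB gwh 229) gd 27883091610518724965067285990866310486607288992000) 10865 618 = true := by decide +kernel

theorem b18 : allR (blk get gs (gwB gwh 229) gd 27883091610518724965067285990866310486607288992000) 11483 640 = true := by decide +kernel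

theorem b19 : allR (blk get gs (gwB gwh 229) gd 27883091610518724965067285990866310486607288992000) 12123 631 = true := by decide +kernel

end Cfsg.H6.ON.C1
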