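import Cfsg.Agent.H6.ON.C1.D5

set_option autoImplicit false
set_option maxRecDepth 100000
set_option Elab.async false

namespace Cfsg.H6.ON.C1

theorem b35 : allR (blk get gs (gwB gwh 229) gd 27883091610518724965067285990866310486607288992000) 20522 459 = true := by decide +kernel

theorem b36 : allR (blk get gs (gwB gwh 229) gd 27883091610518724965067285990866310486607288992000) 20981 458 = true := by decide +kernel

theorem b37 : allR (blk get gs (gwB gwh 229) gd 27883091610518724965067285990866310486607288992000) 21439 449 = true := by decide +kernel

theorem b38 : allR (blk get gs (gwB gwh 229) gd 27883091610518724965067285990866310486607288992000) 21888 445 = true := by decide +kernel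

theorem b39 : allR (blk get gs (gwB gwh 229) gd 27883091610518724965067285990866310486607288992000) 22333 441 = true := by decide +kernel

end Cfsg.H6.ON.C1
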